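import Cfsg.Agent.S0927
import Cfsg.Agent.S0907
import Cfsg.Agent.Blocks.Basic

/-!
# The defect class times central elements of the defect group

`exists_defect_elt` : there is a `p`-regular `g` commuting with the defect group `D` such that no
character of the block vanishes at `u g`, `u ∈ Z(D)`.
-/

set_option autoImplicit false

namespace Cfsg.Agent.H614.Spin

open Finset Cfsg
open scoped ComplexConjugate

theorem isPRegular_of_isDefectClass {G : Type*} [Group G] [Finite G] {p : ℕ} [Fact p.Prime]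
    {M : Ideal AlgInt} (hM : IsPModular p M) {B : Set (IrrCharacter G)} (hB : IsPBlock M B)
    {g : G} (hg : IsDefectClass M B g) : IsPRegular p g := by
  have hMp : M.IsPrime := hM.2.1.isPrime
  intro hp
  apply hg.2.1
  have h1 := S0907.result p M hM B hB 1 g (by
    rw [orderOf_one, Nat.dvd_one]
    exact (Fact.out : p.Prime).one_lt.ne') hp
  have h2 : blockCoeff B g = 0 := by
    rw [Blocks.Basic.blockCoeff_def, h1, mul_zero]
  rw [h2]
  exact ⟨0, 1, M.zero_mem, fun h => hMp.ne_top ((Ideal.eq_top_iff_one _).2 h), by simp⟩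

theorem exists_defect_elt {G : Type*} [Group G] [Finite G] {p : ℕ} [Fact p.Prime]
    {M : Ideal AlgInt} (hM : IsPModular p M) {B : Set (IrrCharacter G)} (hB : IsPBlock M B)
    {D : Subgroup G} (hD : IsDefectGroup p M B D) :
    ∃ g : G, IsPRegular p g ∧ (∀ d ∈ D, d * g = g * d) ∧
      ∀ u ∈ D, (∀ d ∈ D, d * u = u * d) → ∀ χ ∈ B, (χ : G → ℂ) (u * g) ≠ 0 := by
  have hMp : M.IsPrime := hM.2.1.isPrime
  obtain ⟨g, hg, P, hP⟩ := hD
  have hcomm : ∀ d ∈ D, d * g = g * d := by
    intro d hd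
    rw [hP] at hd
    obtain ⟨c, -, rfl⟩ := hd
    exact (Subgroup.mem_centralizer_iff.1 c.2 g rfl).symm
  refine ⟨g, isPRegular_of_isDefectClass hM hB hg, hcomm, fun u hu huc χ hχ h0 => ?_⟩
  rw [hP] at hu
  obtain ⟨c, hc, rfl⟩ := hu
  have h1 := (S0927.result p M hM B hB g hg P c hc).2 (fun w hw => by
    apply Subtype.ext
    have h2 := huc (w : G) (by rw [hP]; exact ⟨w, hw, rfl⟩)
    exact h2.symm) χ hχ
  apply h1
  have h2 : centralChar (χ : G → ℂ) ((c : G) * g) = 0 := by
    rw [Blocks.Basic.centralChar_def]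
    have h3 : (χ : G → ℂ) ((c : G) * g) = 0 := h0
    rw [h3]; simp
  rw [h2]
  exact ⟨0, 1, M.zero_mem, fun h => hMp.ne_top ((Ideal.eq_top_iff_one _).2 h), by simp⟩

end Cfsg.Agent.H614.Spin
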